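import Cfsg.Agent.FGS4.TwoModule.Main
import Mathlib.GroupTheory.Commutator.Basic
import Mathlib.Tactic.LinearCombination
import Mathlib.Tactic.Module

/-! # Assembling the fixed point count -/

set_option linter.style.haveILetI false

namespace Cfsg.Agent.FGS4.TwoModule

open SmallModule
open scoped commutatorElement

variable {S E : Type*} [Group S] [Finite S] [AddCommGroup E] [Module (ZMod 2) E] [Finite E]

theorem exists_fpf (P : Subgroup S) [hPn : P.Normal] (hc : ∀ a ∈ P, ∀ b ∈ P, a * b = b * a)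
    (x : S) (hcomm : ⁅P, Subgroup.zpowers x⁆ = P) : ∀ a ∈ P, x * a = a * x → a = 1 := by
  classical
  let φ : P →* P :=
    { toFun := fun a => ⟨(a : S) * x * (a : S)⁻¹ * x⁻¹, by
        rw [show (a : S) * x * (a : S)⁻¹ * x⁻¹ = (a : S) * (x * (a : S)⁻¹ * x⁻¹) by group]
        exact P.mul_mem a.2 (hPn.conj_mem _ (P.inv_mem a.2) x)⟩
      map_one' := Subtype.ext (by simp)
      map_mul' := fun a b => Subtype.ext (by
        have hb : (b : S) * x * (b : S)⁻¹ * x⁻¹ ∈ P := by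
          rw [show (b : S) * x * (b : S)⁻¹ * x⁻¹ = (b : S) * (x * (b : S)⁻¹ * x⁻¹) by group]
          exact P.mul_mem b.2 (hPn.conj_mem _ (P.inv_mem b.2) x)
        show ((a : S) * b) * x * ((a : S) * b)⁻¹ * x⁻¹ =
          ((a : S) * x * (a : S)⁻¹ * x⁻¹) * ((b : S) * x * (b : S)⁻¹ * x⁻¹)
        calc ((a : S) * b) * x * ((a : S) * b)⁻¹ * x⁻¹
            = ((a : S) * ((b : S) * x * (b : S)⁻¹ * x⁻¹) * (a : S)⁻¹) * ((a : S) * (x * (a : S)⁻¹ * x⁻¹)) := by group
          _ = ((b : S) * x * (b : S)⁻¹ * x⁻¹) * ((a : S) * (x * (a : S)⁻¹ * x⁻¹)) := by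
            rw [hc _ a.2 _ hb, mul_inv_cancel_right]
          _ = ((a : S) * (x * (a : S)⁻¹ * x⁻¹)) * ((b : S) * x * (b : S)⁻¹ * x⁻¹) :=
            hc _ hb _ (P.mul_mem a.2 (hPn.conj_mem _ (P.inv_mem a.2) x))
          _ = _ := by group) }
  set R := φ.range.map P.subtype
  have hR : ∀ (i : ℕ) (a : S), a ∈ P → a * x ^ i * a⁻¹ * (x ^ i)⁻¹ ∈ R := by
    intro i
    induction i with
    | zero => intro a _; simp
    | succ i ih =>
      intro a ha
      have h1 : a * x * a⁻¹ * x⁻¹ ∈ R := ⟨φ ⟨a, ha⟩, ⟨_, rfl⟩, rfl⟩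
      have h2 := ih (x * a * x⁻¹) (hPn.conj_mem a ha x)
      have e : a * x ^ (i + 1) * a⁻¹ * (x ^ (i + 1))⁻¹ = (a * x * a⁻¹ * x⁻¹) *
          (x * a * x⁻¹ * x ^ i * (x * a * x⁻¹)⁻¹ * (x ^ i)⁻¹) := by
        rw [pow_succ']; group
      rw [e]
      exact R.mul_mem h1 h2
  have hle : P ≤ R := by
    conv_lhs => rw [← hcomm]
    rw [Subgroup.commutator_le]
    intro a ha y hy
    obtain ⟨i, rfl⟩ := (IsOfFinOrder.mem_powers_iff_mem_zpowers (isOfFinOrder_of_finite x)).2 hy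
    exact hR i a ha
  have hsur : Function.Surjective φ := by
    intro b
    obtain ⟨_, ⟨a, rfl⟩, hab⟩ := hle b.2
    exact ⟨a, Subtype.ext hab⟩
  have hinj : Function.Injective φ := Finite.injective_iff_surjective.2 hsur
  intro a ha hxa
  have h : φ ⟨a, ha⟩ = φ 1 := Subtype.ext (by
    show a * x * a⁻¹ * x⁻¹ = (φ 1 : S)
    rw [map_one, ← hxa, mul_inv_cancel_right, mul_inv_cancel]; rfl)
  exact congrArg Subtype.val (hinj h)

theorem zmod2_cases : ∀ a : ZMod 2, a = 0 ∨ a = 1 := by decide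

theorem eq_top_of_sylows (p q : ℕ) [Fact p.Prime] [Fact q.Prime]
    (hπ : ∀ r : ℕ, r.Prime → r ∣ Nat.card S → r = 2 ∨ r = p ∨ r = q)
    (S₂ : Sylow 2 S) (Sp : Sylow p S) (Sq : Sylow q S) (Γ : Subgroup S) (h2 : (S₂ : Subgroup S) ≤ Γ)
    (hp : (Sp : Subgroup S) ≤ Γ) (hq : (Sq : Subgroup S) ≤ Γ) : Γ = ⊤ := by
  refine Subgroup.index_eq_one.1 ?_
  by_contra hne
  obtain ⟨r, hr, hrd⟩ := Nat.exists_prime_and_dvd hne
  haveI : Fact (Nat.Prime 2) := ⟨Nat.prime_two⟩
  rcases hπ r hr (hrd.trans (Subgroup.index_dvd_card Γ)) with rfl | rfl | rfl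
  · exact S₂.not_dvd_index (hrd.trans (Subgroup.index_dvd_of_le h2))
  · exact Sp.not_dvd_index (hrd.trans (Subgroup.index_dvd_of_le hp))
  · exact Sq.not_dvd_index (hrd.trans (Subgroup.index_dvd_of_le hq))

theorem main (p q : ℕ) (hp : p.Prime) (hq : q.Prime) (hp2 : p ≠ 2) (hq2 : q ≠ 2) (hpq : p ≠ q)
    (hπ : ∀ r : ℕ, r.Prime → r ∣ Nat.card S → r = 2 ∨ r = p ∨ r = q)
    (S₂ : Sylow 2 S) (Sp : Sylow p S) (Sq : Sylow q S)
    (h2q : Nat.card ↥((S₂ : Subgroup S) ⊔ (Sq : Subgroup S)) = Nat.card ↥S₂ * Nat.card ↥Sq)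
    (hSpN : (Sp : Subgroup S).Normal)
    (hSpmin : ∀ N : Subgroup S, N.Normal → N ≤ (Sp : Subgroup S) → N = ⊥ ∨ N = (Sp : Subgroup S))
    (hSpcard : Nat.card ↥Sp = p ∨ Nat.card ↥Sp = p ^ 2)
    (hSq : Nat.card ↥Sq = q) (hcomm : ⁅(Sp : Subgroup S), (Sq : Subgroup S)⁆ = (Sp : Subgroup S))
    (ρ : Representation (ZMod 2) S E) (hE : Nontrivial E)
    (hirr : ∀ N : Submodule (ZMod 2) E, (∀ s : S, ∀ m ∈ N, ρ s m ∈ N) → N = ⊥ ∨ N = ⊤)
    (hfaith : ∀ x ∈ (Sp : Subgroup S), ρ x = 1 → x = 1) :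
    8 ≤ Nat.card {v : E // ∀ s ∈ (S₂ : Subgroup S), ρ s v = v} ∨
      (Nat.card {v : E // ∀ s ∈ (S₂ : Subgroup S), ρ s v = v} = 4 ∧
        ∃ x ∈ (Sq : Subgroup S), ∃ v : E, (∀ s ∈ (S₂ : Subgroup S), ρ s v = v) ∧
          ¬ ∀ s ∈ (S₂ : Subgroup S), ρ s (ρ x v) = ρ x v) := by
  classical
  haveI := Fact.mk hp
  haveI := Fact.mk hq
  haveI : Fact (Nat.Prime 2) := ⟨Nat.prime_two⟩
  set P := (Sp : Subgroup S) with hP
  haveI := hSpN
  have hSpcard : Nat.card P = p ∨ Nat.card P = p ^ 2 := hSpcard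
  have hSq : Nat.card (Sq : Subgroup S) = q := hSq
  have h2q : Nat.card ↥((S₂ : Subgroup S) ⊔ (Sq : Subgroup S)) = Nat.card S₂ * Nat.card (Sq : Subgroup S) := h2q
  have hc : ∀ a ∈ P, ∀ b ∈ P, a * b = b * a := by
    intro a ha b hb
    have key : ∀ u v : P, u * v = v * u := by
      rcases hSpcard with e | e
      · haveI := isCyclic_of_prime_card (α := P) (p := p) e
        exact fun u v => IsCyclic.commGroup.mul_comm u v
      · exact IsPGroup.commutative_of_card_eq_prime_sq e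
    exact congrArg Subtype.val (key ⟨a, ha⟩ ⟨b, hb⟩)
  have hP1 : P ≠ ⊥ := fun h => by
    have h1 : Nat.card P = 1 := Subgroup.card_eq_one.2 h
    rcases hSpcard with e | e <;> rw [h1] at e
    · exact hp.one_lt.ne e
    · have := hp.one_lt; nlinarith
  have hexp : ∀ a ∈ P, a ^ p = 1 := by
    let K : Subgroup S :=
      { carrier := {a | a ∈ P ∧ a ^ p = 1}
        one_mem' := ⟨P.one_mem, one_pow p⟩
        mul_mem' := fun {a b} ha hb => ⟨P.mul_mem ha.1 hb.1, by
          rw [(show Commute a b from hc a ha.1 b hb.1).mul_pow, ha.2, hb.2, one_mul]⟩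
        inv_mem' := fun {a} ha => ⟨P.inv_mem ha.1, by rw [inv_pow, ha.2, inv_one]⟩ }
    have hKn : K.Normal := ⟨fun a ha g => ⟨hSpN.conj_mem a ha.1 g, by rw [conj_pow, ha.2]; group⟩⟩
    intro a ha
    rcases hSpmin K hKn (fun a ha => ha.1) with h | h
    · exfalso
      obtain ⟨y, hy⟩ := exists_prime_orderOf_dvd_card' (G := P) p (by
        rcases hSpcard with e | e <;> rw [e]
        exact dvd_pow_self p two_ne_zero)
      have hyK : (y : S) ∈ K := ⟨y.2, by rw [← hy, ← Subgroup.orderOf_coe]; exact pow_orderOf_eq_one _⟩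
      rw [h, Subgroup.mem_bot] at hyK
      rw [← Subgroup.orderOf_coe, hyK, orderOf_one] at hy
      exact hp.one_lt.ne hy
    · exact (h.ge ha : a ∈ K).2
  have hfix0 : ∀ v : E, (∀ a ∈ P, ρ a v = v) → v = 0 := by
    intro v hv
    let N : Submodule (ZMod 2) E := ⨅ a : P, LinearMap.ker (ρ (a : S) - 1)
    have hN : ∀ {m}, m ∈ N ↔ ∀ a ∈ P, ρ a m = m := fun {m} => by simp [N, sub_eq_zero]
    rcases hirr N (fun g m hm => hN.2 fun a ha => by
      rw [← app_mul, show a * g = g * (g⁻¹ * a * g⁻¹⁻¹) by group, app_mul,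
        hN.1 hm _ (hSpN.conj_mem a ha g⁻¹)]) with h | h
    · have := hN.2 hv
      rw [h] at this
      exact (Submodule.mem_bot _).1 this
    · obtain ⟨a, ha, ha1⟩ := (Subgroup.bot_or_exists_ne_one P).resolve_left hP1
      exfalso
      refine ha1 (hfaith a ha (LinearMap.ext fun m => ?_))
      exact hN.1 (h ▸ Submodule.mem_top) a ha
  have D : Data ρ P p := ⟨hp, hp2, hSpN, hc, hSpcard, hexp, hfix0⟩
  letI := compAction D
  -- a generator of the Sylow `q`-subgroup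
  obtain ⟨x₀, hx₀⟩ := exists_prime_orderOf_dvd_card' (G := (Sq : Subgroup S)) q (dvd_of_eq hSq.symm)
  set x := (x₀ : S)
  have hxo : orderOf x = q := by rw [Subgroup.orderOf_coe]; exact hx₀
  have hSqx : (Sq : Subgroup S) = Subgroup.zpowers x :=
    (Subgroup.eq_of_le_of_card_ge (Subgroup.zpowers_le.2 x₀.2) (by rw [Nat.card_zpowers, hxo, hSq])).symm
  have hfpfx : ∀ a ∈ P, x * a = a * x → a = 1 := exists_fpf P hc x (by rw [← hSqx]; exact hcomm)
  have hfpf : ∀ y ∈ (S₂ : Subgroup S) ⊔ Subgroup.zpowers x, orderOf y = q → ∀ a ∈ P, y * a = a * y → a = 1 := by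
    intro y _ hy a ha hya
    have hcy : Nat.card (Subgroup.zpowers y) = q ^ (Nat.card S).factorization q := by
      rw [Nat.card_zpowers, hy, ← Sq.card_eq_multiplicity, hSq]
    obtain ⟨g, hg⟩ := MulAction.exists_smul_eq S Sq (Sylow.ofCard _ hcy)
    have e := congrArg (fun R : Sylow q S => (R : Subgroup S)) hg
    simp only [Sylow.coe_subgroup_smul, Sylow.coe_ofCard] at e
    have hmem : g * x * g⁻¹ ∈ Subgroup.zpowers y := by
      rw [← e, hSqx, Subgroup.pointwise_smul_def]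
      exact ⟨x, Subgroup.mem_zpowers x, rfl⟩
    obtain ⟨i, hi⟩ := Subgroup.mem_zpowers_iff.1 hmem
    have h1 : Commute (g * x * g⁻¹) a := hi ▸ (show Commute y a from hya).zpow_left i
    have h2 : x * (g⁻¹ * a * g) = (g⁻¹ * a * g) * x := by
      have h1' := h1.eq
      calc x * (g⁻¹ * a * g) = g⁻¹ * ((g * x * g⁻¹) * a) * g := by group
        _ = g⁻¹ * (a * (g * x * g⁻¹)) * g := by rw [h1']
        _ = _ := by group
    have h3 := hfpfx _ (by simpa using hSpN.conj_mem a ha g⁻¹) h2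
    calc a = g * (g⁻¹ * a * g) * g⁻¹ := by group
      _ = 1 := by rw [h3]; group
  have hcard : Nat.card ((S₂ : Subgroup S) ⊔ Subgroup.zpowers x : Subgroup S) = Nat.card S₂ * q := by
    rw [← hSqx, h2q, hSq]
  by_cases hst : ∃ T : Comp ρ P p, x • T = T
  · obtain ⟨T, hT⟩ := hst
    exact Or.inl (of_stable D hq hq2 S₂.isPGroup' hxo hcard hfpf (Ne.symm hpq) T hT)
  push Not at hst
  -- two orbits
  obtain ⟨T₁, hT₁⟩ := D.exists_comp
  set A₁ : Comp ρ P p := ⟨T₁, hT₁⟩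
  set O : Comp ρ P p → Set (Comp ρ P p) := fun T => MulAction.orbit (S₂ : Subgroup S) T
  have hOmem : ∀ T T' : Comp ρ P p, T' ∈ O T ↔ ∃ s ∈ (S₂ : Subgroup S), s • T = T' := fun T T' =>
    ⟨fun ⟨s, hs⟩ => ⟨s, s.2, hs⟩, fun ⟨s, hs, h⟩ => ⟨⟨s, hs⟩, h⟩⟩
  obtain ⟨A₂, hA₂⟩ : ∃ A₂, A₂ ∉ O A₁ := by
    by_contra hne
    push Not at hne
    have hOu : O A₁ = Set.univ := Set.eq_univ_of_forall hne
    obtain ⟨k, hk⟩ := IsPGroup.iff_card.mp S₂.isPGroup'
    have h1 : Nat.card (Comp ρ P p) ∣ 2 ^ k := by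
      rw [← hk, ← Set.ncard_univ, ← hOu]
      show (MulAction.orbit (S₂ : Subgroup S) A₁).ncard ∣ _
      rw [← MulAction.index_stabilizer]
      exact Subgroup.index_dvd_card _
    obtain ⟨T, hT⟩ := (IsPGroup.of_card (n := 1) (p := q) (G := Subgroup.zpowers x)
      (by rw [Nat.card_zpowers, hxo, pow_one])).nonempty_fixed_point_of_prime_not_dvd_card (Comp ρ P p)
      (fun h => hq2 ((Nat.prime_dvd_prime_iff_eq hq Nat.prime_two).1 (hq.dvd_of_dvd_pow (h.trans h1))))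
    exact hst T (hT ⟨x, Subgroup.mem_zpowers x⟩)
  have hsymm : A₁ ∉ O A₂ := fun h => hA₂ (by
    rw [show O A₁ = O A₂ from MulAction.orbit_eq_iff.2 h]; exact MulAction.mem_orbit_self A₂)
  have hex : ∀ T : Comp ρ P p, ∃ v : E, (∀ s ∈ (S₂ : Subgroup S), ρ s v = v) ∧ proj ρ T.1 v ≠ 0 ∧
      ∀ T' : Comp ρ P p, proj ρ T'.1 v ≠ 0 ↔ T' ∈ O T := by
    intro T
    let C : Submodule (ZMod 2) E := ⨅ a : T.1, LinearMap.ker (ρ (a : S) - 1)
    have hC : ∀ {v}, v ∈ C ↔ ∀ a ∈ T.1, ρ a v = v := fun {v} => by simp [C, sub_eq_zero]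
    obtain ⟨u, huC, hu0, hu⟩ := exists_fixed_of_two (ρ := ρ)
      (S₂.isPGroup'.to_le (inf_le_left : (S₂ : Subgroup S) ⊓ MulAction.stabilizer S T ≤ _)) C
      (fun s hs v hv => by
        have h1 := fixed_smul D s T (hC.1 hv)
        rw [show s • T = T from hs.2] at h1
        exact hC.2 h1)
      (by obtain ⟨-, -, v, hv, hfix⟩ := T.2; exact ⟨v, hC.2 hfix, hv⟩)
    obtain ⟨V, hV⟩ := exists_orbit_vector D (S₂ : Subgroup S) T
    obtain ⟨h1, h2, h3, h4⟩ := hV ⟨u, hC.1 huC, fun s hs hsT => hu s ⟨hs, hsT⟩⟩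
    refine ⟨_, h1, by rw [h2]; exact hu0, fun T' => ?_⟩
    rw [hOmem]
    refine ⟨fun h => by_contra fun hne => h (h3 T' hne), ?_⟩
    rintro ⟨s, hs, rfl⟩ h
    rw [h4 s hs] at h
    exact hu0 (by rw [← app_one ρ u, ← inv_mul_cancel s, app_mul, h, map_zero])
  obtain ⟨V₁, hV₁, -, hs₁⟩ := hex A₁
  obtain ⟨V₂, hV₂, -, hs₂⟩ := hex A₂
  have h11 : proj ρ A₁.1 V₁ ≠ 0 := (hs₁ A₁).2 (MulAction.mem_orbit_self A₁)
  have h22 : proj ρ A₂.1 V₂ ≠ 0 := (hs₂ A₂).2 (MulAction.mem_orbit_self A₂)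
  have h21 : proj ρ A₂.1 V₁ = 0 := not_not.1 fun h => hA₂ ((hs₁ A₂).1 h)
  have h12 : proj ρ A₁.1 V₂ = 0 := not_not.1 fun h => hsymm ((hs₂ A₁).1 h)
  have hadd : ∀ s ∈ (S₂ : Subgroup S), ρ s (V₁ + V₂) = V₁ + V₂ := fun s hs => by
    rw [map_add, hV₁ s hs, hV₂ s hs]
  by_cases h3 : ∃ v₃, (∀ s ∈ (S₂ : Subgroup S), ρ s v₃ = v₃) ∧ v₃ ≠ 0 ∧ v₃ ≠ V₁ ∧ v₃ ≠ V₂ ∧ v₃ ≠ V₁ + V₂
  · obtain ⟨v₃, hv₃, n0, n1, n2, n12⟩ := h3
    left
    refine eight_le (fun c => c 0 • V₁ + c 1 • V₂ + c 2 • v₃) (fun c d h => ?_) fun c s hs => by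
      simp only [map_add, map_smul, hV₁ s hs, hV₂ s hs, hv₃ s hs]
    have key : ∀ e : Fin 3 → ZMod 2, e 0 • V₁ + e 1 • V₂ + e 2 • v₃ = 0 → e = 0 := by
      intro e he
      have h01 := zmod2_cases
      rcases h01 (e 2) with e2 | e2
      · rw [e2, zero_smul, add_zero] at he
        have ha := congrArg (proj ρ A₁.1) he
        have hb := congrArg (proj ρ A₂.1) he
        simp only [map_add, map_smul, map_zero, h12, h21, smul_zero, add_zero, zero_add, smul_eq_zero,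
          h11, h22, or_false] at ha hb
        funext i
        fin_cases i <;> assumption
      · exfalso
        rw [e2, one_smul] at he
        have hv := eq_of_add_eq_zero' he
        rcases h01 (e 0) with e0 | e0 <;> rcases h01 (e 1) with e1 | e1 <;>
          simp only [e0, e1, zero_smul, one_smul, add_zero, zero_add] at hv
        · exact n0 hv.symm
        · exact n2 hv.symm
        · exact n1 hv.symm
        · exact n12 hv.symm
    refine sub_eq_zero.1 (key (c - d) ?_)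
    simp only [Pi.sub_apply, sub_smul]
    linear_combination (norm := module) h
  push Not at h3
  have h4 : ∀ v, (∀ s ∈ (S₂ : Subgroup S), ρ s v = v) → v = 0 ∨ v = V₁ ∨ v = V₂ ∨ v = V₁ + V₂ := fun v hv => by
    by_cases a : v = 0
    · exact Or.inl a
    by_cases b : v = V₁
    · exact Or.inr (Or.inl b)
    by_cases c : v = V₂
    · exact Or.inr (Or.inr (Or.inl c))
    exact Or.inr (Or.inr (Or.inr (h3 v hv a b c)))
  right
  refine ⟨?_, ?_⟩
  · let f : ZMod 2 × ZMod 2 → {v : E // ∀ s ∈ (S₂ : Subgroup S), ρ s v = v} := fun c =>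
      ⟨c.1 • V₁ + c.2 • V₂, fun s hs => by rw [map_add, map_smul, map_smul, hV₁ s hs, hV₂ s hs]⟩
    rw [← Nat.card_eq_of_bijective f ⟨fun c d h => ?_, fun v => ?_⟩]
    · simp [Nat.card_prod]
    · have h' : c.1 • V₁ + c.2 • V₂ = d.1 • V₁ + d.2 • V₂ := congrArg Subtype.val h
      have ha := congrArg (proj ρ A₁.1) h'
      have hb := congrArg (proj ρ A₂.1) h'
      simp only [map_add, map_smul, h12, h21, smul_zero, add_zero, zero_add] at ha hb
      exact Prod.ext (smul_left_injective (ZMod 2) h11 ha) (smul_left_injective (ZMod 2) h22 hb)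
    · rcases h4 v.1 v.2 with e | e | e | e
      · exact ⟨(0, 0), Subtype.ext (by simp [f, e])⟩
      · exact ⟨(1, 0), Subtype.ext (by simp [f, e])⟩
      · exact ⟨(0, 1), Subtype.ext (by simp [f, e])⟩
      · exact ⟨(1, 1), Subtype.ext (by simp [f, e])⟩
  -- the generator does not preserve the fixed space
  refine ⟨x, x₀.2, ?_⟩
  by_contra hno
  push Not at hno
  set supp : E → Set (Comp ρ P p) := fun v => {T | proj ρ T.1 v ≠ 0}
  have hsupp1 : supp V₁ = O A₁ := Set.ext hs₁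
  have hsupp2 : supp V₂ = O A₂ := Set.ext hs₂
  have hsupp12 : supp (V₁ + V₂) = O A₁ ∪ O A₂ := by
    ext T
    show proj ρ T.1 (V₁ + V₂) ≠ 0 ↔ _
    rw [map_add, Set.mem_union, ← hs₁, ← hs₂]
    by_cases h : T ∈ O A₁
    · have h2 : proj ρ T.1 V₂ = 0 := not_not.1 fun h' => by
        have e1 := MulAction.orbit_eq_iff.2 h
        have e2 := MulAction.orbit_eq_iff.2 ((hs₂ T).1 h')
        exact hA₂ (by
          show A₂ ∈ MulAction.orbit (S₂ : Subgroup S) A₁
          rw [← e1, e2]; exact MulAction.mem_orbit_self A₂)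
      simp [h2, (hs₁ T).2 h]
    · simp [not_not.1 (fun h' => h ((hs₁ T).1 h'))]
  have hdisj : Disjoint (O A₁) (O A₂) := Set.disjoint_left.2 fun T h1 h2 => hA₂ (by
    show A₂ ∈ MulAction.orbit (S₂ : Subgroup S) A₁
    rw [← MulAction.orbit_eq_iff.2 h1, MulAction.orbit_eq_iff.2 h2]; exact MulAction.mem_orbit_self A₂)
  have htrans : ∀ v, supp (ρ x v) = (x • ·) '' supp v := by
    intro v
    ext T
    constructor
    · intro h
      refine ⟨x⁻¹ • T, fun h0 => h ?_, smul_inv_smul x T⟩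
      rw [show T = x • x⁻¹ • T from (smul_inv_smul x T).symm, proj_translate D x (x⁻¹ • T) v, h0, map_zero]
    · rintro ⟨T', hT', rfl⟩ h
      rw [proj_translate D x T' v] at h
      exact hT' (by rw [← app_one ρ (proj ρ T'.1 v), ← inv_mul_cancel x, app_mul, h, map_zero])
  have hsize : ∀ v, (supp (ρ x v)).ncard = (supp v).ncard := fun v => by
    rw [htrans]; exact Set.ncard_image_of_injective _ (MulAction.injective x)
  have hpos : ∀ T, 0 < (O T).ncard := fun T => (Set.ncard_pos (Set.toFinite _)).2 ⟨T, MulAction.mem_orbit_self T⟩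
  have hunion : (O A₁ ∪ O A₂).ncard = (O A₁).ncard + (O A₂).ncard :=
    Set.ncard_union_eq hdisj (Set.toFinite _) (Set.toFinite _)
  have hV10 : V₁ ≠ 0 := fun h => h11 (by rw [h, map_zero])
  have hV20 : V₂ ≠ 0 := fun h => h22 (by rw [h, map_zero])
  have hne12 : V₁ ≠ V₂ := fun h => h11 (by rw [h]; exact h12)
  have hinj : Function.Injective (ρ x) :=
    Function.LeftInverse.injective (g := ρ x⁻¹) fun v => by rw [← app_mul, inv_mul_cancel, app_one]
  have hstab : ρ x V₁ ≠ V₁ := by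
    intro hx1
    have hO : ∀ T, x • T ∈ O A₁ ↔ T ∈ O A₁ := by
      intro T
      rw [← hsupp1]
      conv_lhs => rw [← hx1, htrans]
      exact (MulAction.injective x).mem_set_image
    let N : Submodule (ZMod 2) E := ⨅ T : {T : Comp ρ P p // T ∉ O A₁}, LinearMap.ker (proj ρ T.1.1)
    have hN : ∀ {m}, m ∈ N ↔ ∀ T : Comp ρ P p, T ∉ O A₁ → proj ρ T.1 m = 0 := fun {m} => by simp [N]
    let Γ₀ : Submonoid S :=
      { carrier := {g | ∀ T : Comp ρ P p, T ∈ O A₁ → g • T ∈ O A₁}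
        one_mem' := fun T hT => by rwa [one_smul]
        mul_mem' := fun {a b} ha hb T hT => by rw [mul_smul]; exact ha _ (hb _ hT) }
    let Γ : Subgroup S :=
      { Γ₀ with
        inv_mem' := fun {g} hg => by
          have hmem : g⁻¹ ∈ Submonoid.powers g :=
            (IsOfFinOrder.mem_powers_iff_mem_zpowers (isOfFinOrder_of_finite g)).2
              (Subgroup.inv_mem _ (Subgroup.mem_zpowers g))
          exact (Submonoid.powers_le.2 (show g ∈ Γ₀ from hg)) hmem }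
    have hΓ : Γ = ⊤ := by
      refine eq_top_of_sylows p q hπ S₂ Sp Sq Γ (fun s hs T hT => ?_) (fun a ha T hT => ?_) ?_
      · obtain ⟨s', hs', rfl⟩ := (hOmem _ _).1 hT
        exact (hOmem _ _).2 ⟨s * s', Subgroup.mul_mem _ hs hs', mul_smul s s' A₁⟩
      · have e : a • T = T := Subtype.ext (by
          rw [smul_val D a T]
          ext b
          rw [Subgroup.mem_map_equiv, MulAut.conj_symm_apply]
          constructor <;> intro hb
          · have hb' := hc a ha _ (T.2.1 hb)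
            rw [← mul_assoc, ← mul_assoc, mul_inv_cancel, one_mul] at hb'
            rw [mul_right_cancel hb']
            exact hb
          · rw [mul_assoc, ← hc a ha b (T.2.1 hb), inv_mul_cancel_left]; exact hb)
        rwa [e]
      · rw [hSqx, Subgroup.zpowers_le]
        exact fun T hT => (hO T).2 hT
    rcases hirr N (fun g m hm => hN.2 fun T hT => by
      have hg : g⁻¹ • T ∉ O A₁ := fun h => hT (by
        have := (show g ∈ Γ from hΓ ▸ Subgroup.mem_top g) _ h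
        rwa [smul_inv_smul] at this)
      conv_lhs => rw [← smul_inv_smul g T]
      rw [proj_translate D g (g⁻¹ • T) m, hN.1 hm _ hg, map_zero]) with h | h
    · have : V₁ ∈ N := hN.2 fun T hT => not_not.1 fun h' => hT ((hs₁ T).1 h')
      rw [h] at this
      exact hV10 ((Submodule.mem_bot _).1 this)
    · exact h22 (hN.1 (h ▸ Submodule.mem_top) A₂ hA₂)
  rcases h4 _ (fun s hs => hno V₁ hV₁ s hs) with e | e | e | e
  · exact hV10 (hinj (e.trans (map_zero _).symm))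
  · exact hstab e
  · have h12' : (O A₂).ncard = (O A₁).ncard := by rw [← hsupp2, ← hsupp1, ← e]; exact hsize V₁
    rcases h4 _ (fun s hs => hno V₂ hV₂ s hs) with e' | e' | e' | e'
    · exact hV20 (hinj (e'.trans (map_zero _).symm))
    · apply hstab
      obtain ⟨m, hm⟩ : ∃ m : ℕ, (x ^ 2) ^ m = x := exists_pow_eq_self_of_coprime
        (by rw [hxo]; exact Nat.coprime_two_left.2 (hq.odd_of_ne_two hq2))
      have h2 : ρ (x ^ 2) V₁ = V₁ := by rw [pow_two, app_mul, e, e']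
      conv_lhs => rw [← hm]
      rw [map_pow, Module.End.pow_apply]
      exact Function.iterate_fixed h2 m
    · exact hne12 (hinj (e.trans e'.symm))
    · have h5 : (O A₁ ∪ O A₂).ncard = (O A₂).ncard := by
        rw [← hsupp12, ← hsupp2, ← e']; exact hsize V₂
      have := hpos A₁
      omega
  · have h5 : (O A₁ ∪ O A₂).ncard = (O A₁).ncard := by
      rw [← hsupp12, ← hsupp1, ← e]; exact hsize V₁
    have := hpos A₂
    omega

end Cfsg.Agent.FGS4.TwoModule
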