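import Cfsg.Agent.FGS4.TwoModule.Orbit
import Cfsg.Agent.FGS4.FreeModule.Series
import Mathlib.GroupTheory.SpecificGroups.Cyclic
import Mathlib.GroupTheory.QuotientGroup.Basic

/-! # Fixed points of a Sylow two-subgroup on an irreducible module in characteristic two -/

set_option linter.style.haveILetI false

namespace Cfsg.Agent.FGS4.TwoModule

open SmallModule FreeModule

variable {S E : Type*} [Group S] [Finite S] [AddCommGroup E] [Module (ZMod 2) E] [Finite E]
variable {ρ : Representation (ZMod 2) S E}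

omit [Finite S] in
/-- A two-subgroup fixes a nonzero vector of an invariant subspace. -/
theorem exists_fixed_of_two {U : Subgroup S} (hU : IsPGroup 2 U) (C : Submodule (ZMod 2) E)
    (hC : ∀ s ∈ U, ∀ v ∈ C, ρ s v ∈ C) (h0 : ∃ v ∈ C, v ≠ 0) :
    ∃ u ∈ C, u ≠ 0 ∧ ∀ s ∈ U, ρ s u = u := by
  haveI : Fact (Nat.Prime 2) := ⟨Nat.prime_two⟩
  obtain ⟨v, hv, hv0⟩ := h0
  let act : MulAction U C :=
    { smul := fun s w => ⟨ρ (s : S) w, hC s s.2 w w.2⟩
      one_smul := fun w => Subtype.ext (app_one ρ (w : E))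
      mul_smul := fun a b w => Subtype.ext (app_mul ρ a b (w : E)) }
  have hdvd : 2 ∣ Nat.card C := by
    have h : addOrderOf (⟨v, hv⟩ : C) = 2 := addOrderOf_eq_prime
      (Subtype.ext (by rw [two_nsmul]; exact add_self' v)) (fun h => hv0 (congrArg Subtype.val h))
    exact (dvd_of_eq h.symm).trans (addOrderOf_dvd_natCard _)
  obtain ⟨u, hu, hu0⟩ := hU.exists_fixed_point_of_prime_dvd_card_of_fixed_point C hdvd
    (a := 0) (fun s => Subtype.ext (map_zero (ρ (s : S))))
  exact ⟨u, u.2, fun h => hu0 (Subtype.ext h.symm), fun s hs => congrArg Subtype.val (hu ⟨s, hs⟩)⟩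

omit [Finite E] in
theorem eight_le [Finite E] {p : E → Prop} (f : (Fin 3 → ZMod 2) → E) (hf : Function.Injective f)
    (hp : ∀ c, p (f c)) : 8 ≤ Nat.card {v : E // p v} := by
  refine le_trans (le_of_eq ?_) (Nat.card_le_card_of_injective (fun c => (⟨f c, hp c⟩ : {v : E // p v}))
    fun a b h => hf (congrArg Subtype.val h))
  simp

variable {P : Subgroup S} {p : ℕ}

omit [Finite E] in
theorem proj_translate (D : Data ρ P p) (s : S) (T : Comp ρ P p) (v : E) :
    letI := compAction D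
    proj ρ (s • T).1 (ρ s v) = ρ s (proj ρ T.1 v) := by
  classical
  show proj ρ (T.1.map (MulAut.conj s).toMonoidHom) (ρ s v) = _
  haveI := Fintype.ofFinite T.1
  haveI := Fintype.ofFinite (T.1.map (MulAut.conj s).toMonoidHom)
  rw [proj_apply, proj_apply, map_sum]
  refine (Fintype.sum_equiv (T.1.equivMapOfInjective _ (MulAut.conj s).injective).toEquiv _ _ fun a => ?_).symm
  show ρ s (ρ (a : S) v) = ρ (s * a * s⁻¹) (ρ s v)
  rw [← app_mul, ← app_mul, inv_mul_cancel_right]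

/-- The case of a component stable under an element of order `q`. -/
theorem of_stable (D : Data ρ P p) {q : ℕ} (hq : q.Prime) (hq2 : q ≠ 2) {U : Subgroup S}
    (hU : IsPGroup 2 U) {x : S} (hx : orderOf x = q)
    (hcard : Nat.card (U ⊔ Subgroup.zpowers x : Subgroup S) = Nat.card U * q)
    (hfpf : ∀ y ∈ U ⊔ Subgroup.zpowers x, orderOf y = q → ∀ a ∈ P, y * a = a * y → a = 1)
    (hqp : q ≠ p) (T : Comp ρ P p)
    (hT : letI := compAction D; x • T = T) :
    8 ≤ Nat.card {v : E // ∀ s ∈ U, ρ s v = v} := by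
  classical
  letI := compAction D
  haveI := Fact.mk hq
  haveI := Fact.mk D.hp
  haveI : Fact (Nat.Prime 2) := ⟨Nat.prime_two⟩
  haveI := D.normal
  set G := (U ⊔ Subgroup.zpowers x) ⊓ MulAction.stabilizer S T with hG
  have hxG : x ∈ G := ⟨Subgroup.mem_sup_right (Subgroup.mem_zpowers x), hT⟩
  set N := T.1.subgroupOf P
  haveI hNn : N.Normal := ⟨fun a ha b => by
    rw [Subgroup.mem_subgroupOf] at ha ⊢
    rw [Subgroup.coe_mul, Subgroup.coe_mul, D.comm (b : S) b.2 (a : S) a.2, Subgroup.coe_inv,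
      mul_inv_cancel_right]
    exact ha⟩
  have hstab : ∀ g ∈ G, ∀ a : S, a ∈ T.1 ↔ g * a * g⁻¹ ∈ T.1 := by
    intro g hg a
    have h : T.1.map (MulAut.conj g).toMonoidHom = T.1 := congrArg Subtype.val hg.2
    conv_rhs => rw [← h]
    rw [Subgroup.mem_map_equiv, MulAut.conj_symm_apply]
    simp [mul_assoc]
  have hmap : ∀ g : G, N.map ((MulAut.conjNormal (g : S) : MulAut P) : P →* P) = N := by
    intro g
    ext a
    constructor
    · rintro ⟨b, hb, rfl⟩
      rw [Subgroup.mem_subgroupOf]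
      show ((MulAut.conjNormal (g : S) b : P) : S) ∈ T.1
      rw [MulAut.conjNormal_apply]
      exact (hstab g g.2 b).1 (Subgroup.mem_subgroupOf.1 hb)
    · intro ha
      refine ⟨(MulAut.conjNormal (g : S)).symm a, ?_, (MulAut.conjNormal (g : S)).apply_symm_apply a⟩
      rw [SetLike.mem_coe, Subgroup.mem_subgroupOf, hstab g g.2, MulAut.conjNormal_symm_apply]
      simpa [mul_assoc] using Subgroup.mem_subgroupOf.1 ha
  let α : G →* MulAut (P ⧸ N) :=
    { toFun := fun g => QuotientGroup.congr N N (MulAut.conjNormal (g : S)) (hmap g)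
      map_one' := MulEquiv.ext fun d => by
        induction d using QuotientGroup.induction_on with | _ a => ?_
        simp
      map_mul' := fun g h => MulEquiv.ext fun d => by
        induction d using QuotientGroup.induction_on with | _ a => ?_
        simp [MulAut.mul_apply] }
  have hα : ∀ (g : G) (a : P), α g (a : P ⧸ N) = ((MulAut.conjNormal (g : S) a : P) : P ⧸ N) := fun g a =>
    rfl
  set K := α.ker
  have hKmem : ∀ k ∈ K, ∀ a ∈ P, a⁻¹ * ((k : S) * a * (k : S)⁻¹) ∈ T.1 := by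
    intro k hk a ha
    have h := congrArg (fun f : MulAut (P ⧸ N) => f ((⟨a, ha⟩ : P) : P ⧸ N)) (MonoidHom.mem_ker.1 hk)
    simp only [hα, MulAut.one_apply] at h
    have h1 := QuotientGroup.eq.1 h.symm
    rw [Subgroup.mem_subgroupOf, Subgroup.coe_mul, Subgroup.coe_inv, MulAut.conjNormal_apply] at h1
    exact h1
  -- the kernel is a two-group
  have hKq : ¬ q ∣ Nat.card K := by
    intro hd
    obtain ⟨y, hy⟩ := exists_prime_orderOf_dvd_card' q hd
    have hyo : orderOf ((y : G) : S) = q := by rw [Subgroup.orderOf_coe, Subgroup.orderOf_coe]; exact hy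
    have hall : ∀ a ∈ P, a ∈ T.1 := by
      intro a ha
      let Co := {b : S // b ∈ P ∧ a⁻¹ * b ∈ T.1}
      have hinv : ∀ g ∈ Subgroup.zpowers ((y : G) : S), ∀ b, b ∈ P ∧ a⁻¹ * b ∈ T.1 →
          g * b * g⁻¹ ∈ P ∧ a⁻¹ * (g * b * g⁻¹) ∈ T.1 := by
        intro g hg b hb
        obtain ⟨i, rfl⟩ := (IsOfFinOrder.mem_powers_iff_mem_zpowers (isOfFinOrder_of_finite _)).2 hg
        refine ⟨D.normal.conj_mem b hb.1 _, ?_⟩
        have hk : (y : G) ^ i ∈ K := K.pow_mem y.2 i
        have h1 := hKmem _ hk b hb.1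
        rw [SubmonoidClass.coe_pow] at h1
        have h2 := T.1.mul_mem hb.2 h1
        rwa [mul_assoc, mul_inv_cancel_left] at h2
      let act : MulAction (Subgroup.zpowers ((y : G) : S)) Co :=
        { smul := fun g b => ⟨(g : S) * b.1 * (g : S)⁻¹, hinv g g.2 b.1 b.2⟩
          one_smul := fun b => Subtype.ext (show (1 : S) * b.1 * (1 : S)⁻¹ = b.1 by simp)
          mul_smul := fun g h b => Subtype.ext
            (show ((g : S) * h) * b.1 * ((g : S) * h)⁻¹ = (g : S) * ((h : S) * b.1 * (h : S)⁻¹) * (g : S)⁻¹ by group) }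
      have hCo : Nat.card Co = Nat.card T.1 := Nat.card_congr
        { toFun := fun b => ⟨a⁻¹ * b.1, b.2.2⟩
          invFun := fun t => ⟨a * t.1, P.mul_mem ha (T.2.1 t.2), by rw [inv_mul_cancel_left]; exact t.2⟩
          left_inv := fun b => Subtype.ext (mul_inv_cancel_left a b.1)
          right_inv := fun t => Subtype.ext (inv_mul_cancel_left a t.1) }
      have hnd : ¬ q ∣ Nat.card Co := by
        rw [hCo]
        intro h
        have h' := h.trans (Subgroup.card_dvd_of_le T.2.1)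
        rcases D.card with e | e <;> rw [e] at h'
        · exact hqp ((Nat.prime_dvd_prime_iff_eq hq D.hp).1 h')
        · exact hqp ((Nat.prime_dvd_prime_iff_eq hq D.hp).1 (hq.dvd_of_dvd_pow h'))
      obtain ⟨b, hb⟩ := (IsPGroup.of_card (n := 1) (p := q) (G := Subgroup.zpowers ((y : G) : S))
        (by rw [Nat.card_zpowers, hyo, pow_one])).nonempty_fixed_point_of_prime_not_dvd_card Co hnd
      have h1 : ((y : G) : S) * b.1 * ((y : G) : S)⁻¹ = b.1 := congrArg Subtype.val (hb ⟨_, Subgroup.mem_zpowers _⟩)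
      have h2 := hfpf _ (y : G).2.1 hyo b.1 b.2.1 (mul_inv_eq_iff_eq_mul.1 h1)
      have h3 := b.2.2
      rw [h2, mul_one] at h3
      simpa using h3
    have h4 := Subgroup.card_le_card_group T.1
    have h5 : Nat.card P ≤ Nat.card T.1 := Nat.card_le_card_of_injective (fun a : P => (⟨a.1, hall a a.2⟩ : T.1))
      fun a b h => Subtype.ext (congrArg (fun t : T.1 => (t : S)) h)
    rw [← T.2.2.1] at h5
    have := D.hp.two_le
    have := Nat.card_pos (α := T.1)
    nlinarith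
  obtain ⟨kU, hkU⟩ := IsPGroup.iff_card.mp hU
  have hK2 : IsPGroup 2 K := by
    have h1 : Nat.card K ∣ 2 ^ kU * q := by
      rw [← hkU, ← hcard]
      exact (Subgroup.card_subgroup_dvd_card K).trans (Subgroup.card_dvd_of_le inf_le_left)
    obtain ⟨j, -, hj⟩ := (Nat.dvd_prime_pow Nat.prime_two).1
      (((hq.coprime_iff_not_dvd).2 hKq).symm.dvd_of_dvd_mul_right h1)
    exact IsPGroup.of_card hj
  -- the space fixed by `T` and the kernel
  let C : Submodule (ZMod 2) E := ⨅ a : T.1, LinearMap.ker (ρ (a : S) - 1)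
  have hC : ∀ {v}, v ∈ C ↔ ∀ a ∈ T.1, ρ a v = v := fun {v} => by simp [C, sub_eq_zero]
  let W₀ : Submodule (ZMod 2) E := C ⊓ ⨅ k : K, LinearMap.ker (ρ ((k : G) : S) - 1)
  have hW₀ : ∀ {v}, v ∈ W₀ ↔ (∀ a ∈ T.1, ρ a v = v) ∧ ∀ k ∈ K, ρ ((k : G) : S) v = v := fun {v} => by
    simp only [W₀, Submodule.mem_inf, hC]
    simp [sub_eq_zero]
  have hCG : ∀ g ∈ G, ∀ v ∈ C, ρ g v ∈ C := fun g hg v hv => hC.2 fun a ha => by
    have h1 : g⁻¹ * a * g ∈ T.1 := by rw [hstab g hg]; simpa [mul_assoc] using ha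
    rw [← app_mul, show a * g = g * (g⁻¹ * a * g) by group, app_mul, hC.1 hv _ h1]
  obtain ⟨v₁, hv₁, hv₁0, hv₁K⟩ := exists_fixed_of_two (hK2.map G.subtype) C
    (fun s hs v hv => hCG s (Subgroup.map_subtype_le _ hs) v hv)
    (by obtain ⟨-, -, v, hv, hfix⟩ := T.2; exact ⟨v, hC.2 hfix, hv⟩)
  have hv₁W : v₁ ∈ W₀ := hW₀.2 ⟨hC.1 hv₁, fun k hk => hv₁K _ ⟨k, hk, rfl⟩⟩
  have hinvG : Inv ρ G W₀ := by
    intro g hg v hv
    refine hW₀.2 ⟨hC.1 (hCG g hg v (hC.2 (hW₀.1 hv).1)), fun k hk => ?_⟩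
    have h1 := (hW₀.1 hv).2 _ (α.normal_ker.conj_mem k hk (⟨g, hg⟩ : G)⁻¹)
    simp only [Subgroup.coe_mul, Subgroup.coe_inv, inv_inv] at h1
    rw [← app_mul, show ((k : G) : S) * g = g * (g⁻¹ * (k : S) * g) by group, app_mul, h1]
  have hinvP : Inv ρ P W₀ := by
    intro a ha v hv
    refine hW₀.2 ⟨fun t ht => ?_, fun k hk => ?_⟩
    · rw [← app_mul, D.comm t (T.2.1 ht) a ha, app_mul, (hW₀.1 hv).1 t ht]
    · rw [← app_mul, show ((k : G) : S) * a = a * (a⁻¹ * ((k : S) * a * (k : S)⁻¹)) * (k : S) by group,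
        app_mul, (hW₀.1 hv).2 k hk, app_mul, (hW₀.1 hv).1 _ (hKmem k hk a ha)]
  let σ : G ⧸ K →* Module.End (ZMod 2) W₀ := QuotientGroup.lift K (resHom hinvG) (fun k hk =>
    MonoidHom.mem_ker.2 (LinearMap.ext fun v => Subtype.ext ((hW₀.1 v.2).2 k hk)))
  let τ : P ⧸ N →* Module.End (ZMod 2) W₀ := QuotientGroup.lift N (resHom hinvP) (fun a ha =>
    MonoidHom.mem_ker.2 (LinearMap.ext fun v => Subtype.ext ((hW₀.1 v.2).1 a (Subgroup.mem_subgroupOf.1 ha))))
  have hσ : ∀ g : G, σ (g : G ⧸ K) = resHom hinvG g := fun g => rfl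
  have hτ : ∀ a : P, τ (a : P ⧸ N) = resHom hinvP a := fun a => rfl
  let α' : G ⧸ K →* MulAut (P ⧸ N) := QuotientGroup.kerLift α
  have hα' : ∀ g : G, α' (g : G ⧸ K) = α g := fun g => rfl
  have hNp : Nat.card (P ⧸ N) = p := by
    have h1 := Subgroup.card_eq_card_quotient_mul_card_subgroup N
    rw [Nat.card_congr (Subgroup.subgroupOfEquivOfLe T.2.1).toEquiv, ← T.2.2.1, mul_comm] at h1
    exact (Nat.eq_of_mul_eq_mul_right Nat.card_pos h1).symm
  have hfpf' : ∀ h : G ⧸ K, h ≠ 1 → ∀ d : P ⧸ N, α' h d = d → d = 1 := by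
    intro h h1 d hd
    by_contra hd1
    refine h1 (QuotientGroup.kerLift_injective α ?_)
    rw [map_one]
    refine MulEquiv.ext fun e => ?_
    have he : e ∈ Subgroup.zpowers d := mem_zpowers_of_prime_card hNp hd1
    obtain ⟨i, rfl⟩ := Subgroup.mem_zpowers_iff.1 he
    show α' h (d ^ i) = d ^ i
    rw [map_zpow, hd]
  haveI : Fintype (G ⧸ K) := Fintype.ofFinite _
  have hcop : (Nat.card (G ⧸ K)).Coprime (Nat.card (P ⧸ N)) := by
    rw [hNp]
    refine ((D.hp.coprime_iff_not_dvd).2 fun hd => ?_).symm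
    obtain ⟨h, hh⟩ := exists_prime_orderOf_dvd_card' p hd
    let act : MulAction (Subgroup.zpowers h) (P ⧸ N) :=
      { smul := fun g d => α' (g : G ⧸ K) d
        one_smul := fun d => by show α' 1 d = d; rw [map_one]; rfl
        mul_smul := fun g g' d => by show α' ((g : G ⧸ K) * g') d = _; rw [map_mul]; rfl }
    obtain ⟨d, hd', hd1⟩ := (IsPGroup.of_card (n := 1) (p := p) (G := Subgroup.zpowers h)
      (by rw [Nat.card_zpowers, hh, pow_one])).exists_fixed_point_of_prime_dvd_card_of_fixed_point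
      (P ⧸ N) (dvd_of_eq hNp.symm) (a := 1) (fun g => map_one (α' (g : G ⧸ K)))
    refine hd1 (hfpf' h (fun e => ?_) d (hd' ⟨h, Subgroup.mem_zpowers h⟩)).symm
    rw [e, orderOf_one] at hh
    exact D.hp.one_lt.ne hh
  obtain ⟨W, hWinj, hWsurj⟩ := isFree_of_abelian σ τ α'
    (fun h d => by
      induction h using QuotientGroup.induction_on with | _ g => ?_
      induction d using QuotientGroup.induction_on with | _ a => ?_
      rw [hσ, hτ, hα', hα, hτ]
      refine LinearMap.ext fun v => Subtype.ext ?_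
      show ρ (g : S) (ρ (a : S) v) = ρ ((MulAut.conjNormal (g : S) a : P) : S) (ρ (g : S) v)
      rw [← app_mul, ← app_mul, MulAut.conjNormal_apply, inv_mul_cancel_right])
    (fun a b => by
      induction a using QuotientGroup.induction_on with | _ a => ?_
      induction b using QuotientGroup.induction_on with | _ b => ?_
      rw [hτ, hτ, ← map_mul, ← map_mul]
      exact congrArg (resHom hinvP) (Subtype.ext (D.comm (a : S) a.2 (b : S) b.2)))
    (by rw [hNp, ZMod.natCast_eq_one_iff_odd.2 (D.hp.odd_of_ne_two D.hp2)]; exact one_ne_zero)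
    (fun v hv => Subtype.ext (D.fix0 v fun a ha => congrArg Subtype.val (hv ((⟨a, ha⟩ : P) : P ⧸ N))))
    hfpf' hcop
  obtain ⟨w, hw, hw0⟩ : ∃ w ∈ W, w ≠ 0 := by
    obtain ⟨f, hf, hfv⟩ := hWsurj ⟨v₁, hv₁W⟩
    by_contra hne
    push Not at hne
    apply hv₁0
    have : ∑ h, σ h (f h) = 0 := Finset.sum_eq_zero fun h _ => by rw [hne _ (hf h), map_zero]
    rw [this] at hfv
    exact (congrArg Subtype.val hfv).symm
  -- the image of `U` and the element of order `q`
  set Ub := (U.subgroupOf G).map (QuotientGroup.mk' K)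
  set X : G ⧸ K := ((⟨x, hxG⟩ : G) : G ⧸ K)
  have hUb : IsPGroup 2 Ub := (hU.comap_of_injective G.subtype G.subtype_injective).map _
  have hXo : orderOf X = q := by
    refine orderOf_eq_prime ?_ fun h => ?_
    · show ((⟨x, hxG⟩ : G) : G ⧸ K) ^ q = 1
      rw [← QuotientGroup.mk_pow, show (⟨x, hxG⟩ : G) ^ q = 1 from Subtype.ext (by
        rw [SubmonoidClass.coe_pow, ← hx, pow_orderOf_eq_one]; rfl), QuotientGroup.mk_one]
    · have h1 : (⟨x, hxG⟩ : G) ∈ K := (QuotientGroup.eq_one_iff _).1 h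
      refine hKq ?_
      have := orderOf_dvd_natCard (⟨_, h1⟩ : K)
      rwa [Subgroup.orderOf_mk, Subgroup.orderOf_mk, hx] at this
  have hXU : ∀ i j : Fin 3, X ^ (i : ℕ) * (X ^ (j : ℕ))⁻¹ ∈ Ub → i = j := by
    intro i j hij
    obtain ⟨k, hk⟩ := IsPGroup.iff_orderOf.1 hUb ⟨_, hij⟩
    rw [Subgroup.orderOf_mk] at hk
    have h1 : orderOf (X ^ (i : ℕ) * (X ^ (j : ℕ))⁻¹) ∣ q := by
      rw [← hXo]
      obtain ⟨z, hz⟩ := Subgroup.mem_zpowers_iff.1 ((Subgroup.zpowers X).mul_mem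
        (Subgroup.pow_mem _ (Subgroup.mem_zpowers X) (i : ℕ))
        (Subgroup.inv_mem _ (Subgroup.pow_mem _ (Subgroup.mem_zpowers X) (j : ℕ))))
      rw [← hz]
      exact orderOf_dvd_of_mem_zpowers (Subgroup.zpow_mem _ (Subgroup.mem_zpowers X) z)
    rw [hk] at h1
    rcases (Nat.dvd_prime hq).1 h1 with e | e
    · rw [← hk, orderOf_eq_one_iff, mul_inv_eq_one] at e
      have hlt : ∀ l : Fin 3, (l : ℕ) < orderOf X := fun l => by
        rw [hXo]; have := hq.two_le; have := l.2; omega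
      exact Fin.ext (pow_injOn_Iio_orderOf (hlt i) (hlt j) e)
    · exfalso
      rcases k with - | k
      · simp at e; exact hq.one_lt.ne e
      · exact hq2 ((Nat.prime_dvd_prime_iff_eq Nat.prime_two hq).1 (e ▸ dvd_pow_self 2 k.succ_ne_zero)).symm
  let f : (Fin 3 → ZMod 2) → G ⧸ K → W₀ := fun c h =>
    ∑ j : Fin 3, if h * (X ^ (j : ℕ))⁻¹ ∈ Ub then c j • w else 0
  have hfW : ∀ c h, f c h ∈ W := fun c h => W.sum_mem fun j _ => by
    split_ifs
    · exact W.smul_mem _ hw
    · exact W.zero_mem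
  let u : (Fin 3 → ZMod 2) → W₀ := fun c => ∑ h, σ h (f c h)
  have huinj : Function.Injective u := by
    intro c d hcd
    have h0 := hWinj (fun h => f c h - f d h) (fun h => W.sub_mem (hfW c h) (hfW d h)) (by
      simp only [map_sub, Finset.sum_sub_distrib]
      exact sub_eq_zero.2 hcd)
    funext i
    have h1 := congrFun h0 (X ^ (i : ℕ))
    have heval : ∀ c : Fin 3 → ZMod 2, f c (X ^ (i : ℕ)) = c i • w := by
      intro c
      show (∑ j : Fin 3, _) = _
      rw [Finset.sum_eq_single i (fun j _ hj => if_neg fun h => hj (hXU i j h).symm)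
        (fun h => absurd (Finset.mem_univ i) h), mul_inv_cancel, if_pos Ub.one_mem]
    simp only [Pi.zero_apply, heval, ← sub_smul, smul_eq_zero, hw0, or_false, sub_eq_zero] at h1
    exact h1
  have hufix : ∀ c, ∀ g : G, (g : S) ∈ U → ρ (g : S) (u c : E) = u c := by
    intro c g hg
    have hgU : (g : G ⧸ K) ∈ Ub := ⟨g, Subgroup.mem_subgroupOf.2 hg, rfl⟩
    have : σ (g : G ⧸ K) (u c) = u c := by
      show σ (g : G ⧸ K) (∑ h, σ h (f c h)) = ∑ h, σ h (f c h)
      rw [map_sum]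
      refine Fintype.sum_equiv (Equiv.mulLeft (g : G ⧸ K)) _ _ fun h => ?_
      rw [← Module.End.mul_apply, ← map_mul]
      congr 1
      refine Finset.sum_congr rfl fun j _ => ?_
      show _ = if (g : G ⧸ K) * h * (X ^ (j : ℕ))⁻¹ ∈ Ub then c j • w else 0
      rw [mul_assoc]
      simp only [Ub.mul_mem_cancel_left hgU]
    exact congrArg Subtype.val this
  obtain ⟨V, hV⟩ := exists_orbit_vector D U T
  let u' : (Fin 3 → ZMod 2) → {u : E // (∀ a ∈ T.1, ρ a u = u) ∧ ∀ s ∈ U, s • T = T → ρ s u = u} := fun c =>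
    ⟨u c, (hW₀.1 (u c).2).1, fun s hs hsT => hufix c ⟨s, Subgroup.mem_sup_left hs, hsT⟩ hs⟩
  refine eight_le (fun c => V (u' c)) (fun c d h => huinj (Subtype.ext ?_)) fun c => (hV _).1
  have h1 := congrArg (proj ρ T.1) h
  rwa [(hV _).2.1, (hV _).2.1] at h1

end Cfsg.Agent.FGS4.TwoModule
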