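import Mathlib.RepresentationTheory.Basic
import Mathlib.Algebra.Field.ZMod
import Mathlib.GroupTheory.Sylow
import Mathlib.GroupTheory.GroupAction.Quotient
import Cfsg.Agent.FGS4.SmallModule.Core

/-! # Components of an elementary normal subgroup on a module in characteristic two -/

set_option linter.style.haveILetI false

namespace Cfsg.Agent.FGS4.TwoModule

open SmallModule

variable {S E : Type*} [Group S] [Finite S] [AddCommGroup E] [Module (ZMod 2) E]

/-- The data: a normal abelian `p`-subgroup of order `p` or `p²` without fixed vectors. -/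
structure Data (ρ : Representation (ZMod 2) S E) (P : Subgroup S) (p : ℕ) : Prop where
  hp : p.Prime
  hp2 : p ≠ 2
  normal : P.Normal
  comm : ∀ a ∈ P, ∀ b ∈ P, a * b = b * a
  card : Nat.card P = p ∨ Nat.card P = p ^ 2
  exp : ∀ a ∈ P, a ^ p = 1
  fix0 : ∀ v, (∀ a ∈ P, ρ a v = v) → v = 0

/-- The kernels with nonzero fixed vectors. -/
def IsComp (ρ : Representation (ZMod 2) S E) (P : Subgroup S) (p : ℕ) (T : Subgroup S) : Prop :=
  T ≤ P ∧ Nat.card T * p = Nat.card P ∧ ∃ v : E, v ≠ 0 ∧ ∀ a ∈ T, ρ a v = v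

variable {ρ : Representation (ZMod 2) S E} {P : Subgroup S} {p : ℕ}

open scoped Classical in
/-- The sum over a subgroup. -/
noncomputable def proj (ρ : Representation (ZMod 2) S E) (T : Subgroup S) : E →ₗ[ZMod 2] E :=
  haveI := Fintype.ofFinite T
  ∑ a : T, ρ (a : S)

theorem proj_apply (T : Subgroup S) [Fintype T] (v : E) : proj ρ T v = ∑ a : T, ρ (a : S) v := by
  unfold proj
  rw [LinearMap.sum_apply]
  exact Finset.sum_congr (by ext; simp) fun _ _ => rfl

theorem proj_fixed (T : Subgroup S) (v : E) {a : S} (ha : a ∈ T) : ρ a (proj ρ T v) = proj ρ T v := by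
  classical
  haveI := Fintype.ofFinite T
  rw [proj_apply, map_sum]
  exact Fintype.sum_equiv (Equiv.mulLeft (⟨a, ha⟩ : T)) (fun c : T => ρ a (ρ (c : S) v)) (fun c : T => ρ (c : S) v)
    fun c => (app_mul ρ a c v).symm

theorem proj_of_fixed (T : Subgroup S) (hodd : Odd (Nat.card T)) {v : E} (hv : ∀ a ∈ T, ρ a v = v) :
    proj ρ T v = v := by
  classical
  haveI := Fintype.ofFinite T
  rw [proj_apply, Finset.sum_congr rfl (fun (a : T) _ => hv (a : S) a.2), Finset.sum_const, Finset.card_univ,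
    ← Nat.card_eq_fintype_card, ← Nat.cast_smul_eq_nsmul (ZMod 2), ZMod.natCast_eq_one_iff_odd.2 hodd, one_smul]

namespace Data

variable (D : Data ρ P p)
include D

theorem odd {T : Subgroup S} (hT : T ≤ P) : Odd (Nat.card T) := by
  have h := Subgroup.card_dvd_of_le hT
  rcases D.card with e | e <;> rw [e] at h
  · exact Odd.of_dvd_nat (D.hp.odd_of_ne_two D.hp2) h
  · exact Odd.of_dvd_nat ((D.hp.odd_of_ne_two D.hp2).pow) h

theorem sep {T T' : Subgroup S} (hT : IsComp ρ P p T) (hT' : IsComp ρ P p T') (hne : T ≠ T') {v : E}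
    (h1 : ∀ a ∈ T, ρ a v = v) (h2 : ∀ a ∈ T', ρ a v = v) : v = 0 := by
  let F : Subgroup S :=
    { carrier := {a | ρ a v = v ∧ ρ a⁻¹ v = v}
      one_mem' := ⟨app_one ρ v, by rw [inv_one, app_one]⟩
      mul_mem' := fun {a b} ha hb => ⟨by rw [app_mul, hb.1, ha.1], by rw [mul_inv_rev, app_mul, ha.2, hb.2]⟩
      inv_mem' := fun {a} ha => ⟨ha.2, by rw [inv_inv]; exact ha.1⟩ }
  have hle : T ⊔ T' ≤ F := sup_le (fun a ha => ⟨h1 a ha, h1 _ (T.inv_mem ha)⟩)
    (fun a ha => ⟨h2 a ha, h2 _ (T'.inv_mem ha)⟩)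
  refine D.fix0 v fun a ha => ?_
  have hsup : T ⊔ T' = P := by
    obtain ⟨c, hc⟩ := Subgroup.card_dvd_of_le (le_sup_left : T ≤ T ⊔ T')
    have hd := Subgroup.card_dvd_of_le (sup_le hT.1 hT'.1)
    rw [hc, ← hT.2.1] at hd
    rcases (Nat.dvd_prime D.hp).1 (Nat.dvd_of_mul_dvd_mul_left Nat.card_pos hd) with h | h
    · exfalso
      have e : T = T ⊔ T' := Subgroup.eq_of_le_of_card_ge le_sup_left (by rw [hc, h, mul_one])
      refine hne (Subgroup.eq_of_le_of_card_ge (e.ge.trans' le_sup_right) ?_).symm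
      exact le_of_eq (Nat.eq_of_mul_eq_mul_right D.hp.pos (hT.2.1.trans hT'.2.1.symm))
    · exact Subgroup.eq_of_le_of_card_ge (sup_le hT.1 hT'.1) (by rw [hc, h, hT.2.1])
  exact (hle (hsup.symm ▸ ha : a ∈ T ⊔ T')).1

theorem proj_other {T T' : Subgroup S} (hT : IsComp ρ P p T) (hT' : IsComp ρ P p T') (hne : T ≠ T') {v : E}
    (hv : ∀ a ∈ T', ρ a v = v) : proj ρ T v = 0 := by
  classical
  haveI := Fintype.ofFinite T
  refine D.sep hT hT' hne (fun a ha => proj_fixed T v ha) fun b hb => ?_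
  rw [proj_apply, map_sum]
  exact Finset.sum_congr rfl fun a _ => by
    rw [← app_mul, D.comm b (hT'.1 hb) a (hT.1 a.2), app_mul, hv b hb]

theorem exists_comp [Nontrivial E] : ∃ T, IsComp ρ P p T := by
  classical
  obtain ⟨v, hv⟩ := exists_ne (0 : E)
  rcases D.card with e | e
  · exact ⟨⊥, bot_le, by rw [Subgroup.card_bot, one_mul, e], v, hv, fun a ha => by rw [Subgroup.mem_bot.1 ha, app_one]⟩
  by_contra hne
  push Not at hne
  have hP1 : P ≠ ⊥ := fun h => by
    rw [h, Subgroup.card_bot] at e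
    have := D.hp.one_lt
    nlinarith
  haveI := Fact.mk D.hp
  have hord : ∀ a ∈ P, a ≠ 1 → orderOf a = p := fun a ha ha1 => orderOf_eq_prime (D.exp a ha) ha1
  have hfpf : ∀ a ∈ P, a ≠ 1 → (∀ w, ρ a w = w → w = 0) := by
    intro a ha ha1 w hw
    by_contra hw0
    refine hne _ ⟨Subgroup.zpowers_le.2 ha, by rw [Nat.card_zpowers, hord a ha ha1, e]; ring, w, hw0,
      fun b hb => ?_⟩
    obtain ⟨i, rfl⟩ := (IsOfFinOrder.mem_powers_iff_mem_zpowers (isOfFinOrder_of_finite a)).2 hb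
    show ρ (a ^ i) w = w
    rw [map_pow, Module.End.pow_apply]
    exact Function.iterate_fixed hw i
  obtain ⟨a, ha, ha1⟩ := (Subgroup.bot_or_exists_ne_one P).resolve_left hP1
  obtain ⟨b, hb, hba⟩ : ∃ b ∈ P, b ∉ Subgroup.zpowers a := by
    by_contra hsub
    push Not at hsub
    have h1 := Subgroup.card_dvd_of_le hsub
    rw [e, Nat.card_zpowers, hord a ha ha1] at h1
    have := Nat.le_of_dvd D.hp.pos h1
    have := D.hp.one_lt
    nlinarith
  have hN : ∀ x ∈ P, x ≠ 1 → ∀ u, ∑ i ∈ Finset.range p, ρ (x ^ i) u = 0 := by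
    intro x hx hx1 u
    refine hfpf x hx hx1 _ ?_
    have h1 := Finset.sum_range_succ' (fun i => ρ (x ^ i) u) p
    have h2 := Finset.sum_range_succ (fun i => ρ (x ^ i) u) p
    rw [h2, D.exp x hx, pow_zero] at h1
    have h3 := add_right_cancel h1
    rw [map_sum]
    simp only [← app_mul, ← pow_succ']
    exact h3.symm
  have htot : ∑ i ∈ Finset.range p, ∑ j ∈ Finset.range p, ρ ((b * a ^ i) ^ j) v = 0 :=
    Finset.sum_eq_zero fun i _ => hN _ (P.mul_mem hb (P.pow_mem ha i)) (fun h => hba (by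
      rw [eq_inv_of_mul_eq_one_left h]
      exact Subgroup.inv_mem _ (Subgroup.pow_mem _ (Subgroup.mem_zpowers a) i))) v
  rw [Finset.sum_comm, Finset.sum_eq_single 0] at htot
  · simp only [pow_zero, app_one, Finset.sum_const, Finset.card_range] at htot
    rw [← Nat.cast_smul_eq_nsmul (ZMod 2), ZMod.natCast_eq_one_iff_odd.2 (D.hp.odd_of_ne_two D.hp2), one_smul] at htot
    exact hv htot
  · intro j hj hj0
    have h : ∀ i, ρ ((b * a ^ i) ^ j) v = ρ (b ^ j) (ρ ((a ^ j) ^ i) v) := fun i => by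
      rw [(show Commute b (a ^ i) from D.comm b hb _ (P.pow_mem ha i)).mul_pow, app_mul, ← pow_mul, ← pow_mul,
        mul_comm i]
    rw [Finset.sum_congr rfl fun i _ => h i, ← map_sum, hN _ (P.pow_mem ha j) (fun h1 => ?_) v, map_zero]
    have h5 : orderOf a ∣ j := orderOf_dvd_of_pow_eq_one h1
    rw [hord a ha ha1] at h5
    exact absurd (Nat.le_of_dvd (Nat.pos_of_ne_zero hj0) h5) (not_le.2 (Finset.mem_range.1 hj))
  · intro h; exact absurd (Finset.mem_range.2 D.hp.pos) h

theorem isComp_conj {T : Subgroup S} (hT : IsComp ρ P p T) (s : S) :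
    IsComp ρ P p (T.map (MulAut.conj s).toMonoidHom) := by
  obtain ⟨hle, hcard, v, hv, hfix⟩ := hT
  refine ⟨?_, ?_, ρ s v, fun h => hv ?_, ?_⟩
  · rintro _ ⟨a, ha, rfl⟩
    exact D.normal.conj_mem a (hle ha) s
  · rw [Subgroup.card_map_of_injective (MulAut.conj s).injective]
    exact hcard
  · rw [← app_one ρ v, ← inv_mul_cancel s, app_mul, h, map_zero]
  · rintro _ ⟨a, ha, rfl⟩
    show ρ (s * a * s⁻¹) (ρ s v) = ρ s v
    rw [← app_mul, inv_mul_cancel_right, app_mul, hfix a ha]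

end Data

/-- The components as a type. -/
abbrev Comp (ρ : Representation (ZMod 2) S E) (P : Subgroup S) (p : ℕ) := {T : Subgroup S // IsComp ρ P p T}

/-- Conjugation on components. -/
@[reducible] def compAction (D : Data ρ P p) : MulAction S (Comp ρ P p) where
  smul s T := ⟨T.1.map (MulAut.conj s).toMonoidHom, D.isComp_conj T.2 s⟩
  one_smul T := Subtype.ext (by
    show T.1.map (MulAut.conj (1 : S)).toMonoidHom = T.1
    rw [map_one]; exact Subgroup.map_id _)
  mul_smul a b T := Subtype.ext (by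
    show T.1.map (MulAut.conj (a * b)).toMonoidHom = (T.1.map _).map _
    rw [Subgroup.map_map, map_mul]; rfl)

theorem smul_val (D : Data ρ P p) (s : S) (T : Comp ρ P p) :
    letI := compAction D
    (s • T).1 = T.1.map (MulAut.conj s).toMonoidHom := rfl

theorem fixed_smul (D : Data ρ P p) (s : S) (T : Comp ρ P p) {u : E} (hu : ∀ a ∈ T.1, ρ a u = u) :
    letI := compAction D
    ∀ a ∈ (s • T).1, ρ a (ρ s u) = ρ s u := by
  rintro _ ⟨a, ha, rfl⟩
  show ρ (s * a * s⁻¹) (ρ s u) = ρ s u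
  rw [← app_mul, inv_mul_cancel_right, app_mul, hu a ha]

/-- The sum of the translates of a vector over an orbit. -/
theorem exists_orbit_vector (D : Data ρ P p) (U : Subgroup S) (T : Comp ρ P p) :
    letI := compAction D
    ∃ V : {u : E // (∀ a ∈ T.1, ρ a u = u) ∧ ∀ s ∈ U, s • T = T → ρ s u = u} → E,
      ∀ u, (∀ s ∈ U, ρ s (V u) = V u) ∧ proj ρ T.1 (V u) = u.1 ∧
        (∀ T' : Comp ρ P p, (¬ ∃ s ∈ U, s • T = T') → proj ρ T'.1 (V u) = 0) ∧
        ∀ s ∈ U, proj ρ (s • T).1 (V u) = ρ s u.1 := by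
  classical
  letI := compAction D
  haveI := Fintype.ofFinite (U ⧸ MulAction.stabilizer U T)
  let F : {u : E // (∀ a ∈ T.1, ρ a u = u) ∧ ∀ s ∈ U, s • T = T → ρ s u = u} → U ⧸ MulAction.stabilizer U T → E :=
    fun u => Quotient.lift (fun s : U => ρ (s : S) u.1) (fun a b h => by
      have h1 : a⁻¹ * b ∈ MulAction.stabilizer U T := QuotientGroup.leftRel_apply.1 h
      have h2 := u.2.2 _ (a⁻¹ * b).2 h1
      show ρ (a : S) u.1 = ρ (b : S) u.1
      conv_lhs => rw [← h2]
      rw [← app_mul, Subgroup.coe_mul, Subgroup.coe_inv, mul_inv_cancel_left])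
  refine ⟨fun u => ∑ q, F u q, fun u => ?_⟩
  have hterm : ∀ s : U, ∀ a ∈ ((s : S) • T).1, ρ a (F u (s : U ⧸ MulAction.stabilizer U T)) = F u s :=
    fun s => fixed_smul D s T u.2.1
  have key : ∀ s₀ : U, proj ρ ((s₀ : S) • T).1 (∑ q, F u q) = ρ (s₀ : S) u.1 := by
    intro s₀
    rw [map_sum, Finset.sum_eq_single (s₀ : U ⧸ MulAction.stabilizer U T)]
    · exact proj_of_fixed _ (D.odd ((s₀ : S) • T).2.1) (hterm s₀)
    · intro q _ hq
      induction q using QuotientGroup.induction_on with | _ s => ?_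
      refine D.proj_other ((s₀ : S) • T).2 ((s : S) • T).2 (fun h => hq ?_) (hterm s)
      rw [QuotientGroup.eq, MulAction.mem_stabilizer_iff]
      show ((s⁻¹ * s₀ : U) : S) • T = T
      rw [Subgroup.coe_mul, Subgroup.coe_inv, mul_smul, Subtype.ext h, inv_smul_smul]
    · exact fun h => absurd (Finset.mem_univ _) h
  refine ⟨fun s hs => ?_, ?_, fun T' hT' => ?_, fun s hs => key ⟨s, hs⟩⟩
  · rw [map_sum]
    refine Fintype.sum_equiv (MulAction.toPerm (⟨s, hs⟩ : U)) _ _ fun q => ?_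
    induction q using QuotientGroup.induction_on with | _ a => ?_
    exact (app_mul ρ s (a : S) u.1).symm
  · have := key 1
    rwa [OneMemClass.coe_one, one_smul, app_one] at this
  · rw [map_sum]
    refine Finset.sum_eq_zero fun q _ => ?_
    induction q using QuotientGroup.induction_on with | _ s => ?_
    exact D.proj_other T'.2 ((s : S) • T).2 (fun h => hT' ⟨s, s.2, (Subtype.ext h).symm⟩) (hterm s)

end Cfsg.Agent.FGS4.TwoModule
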